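import Groth.Agent.Hensel.Lazard
import Groth.Agent.Hensel.LazardGlue
import Groth.Agent.CalgC.IndEtale
import Groth.Agent.Pi1C.IndEtaleWE
import Groth.Agent.Pi1.H394.KummerAlg

/-!
# Permanence properties of ind-etale algebras in Lazard form (`Laz`)

* `weaklyEtale`, `formallyEtale`, `of_self`, `of_algEquiv`;
* `baseChange`, `of_isPushout`, `of_pushout` (pushout square in terms of ring homs);
* `of_isLocalization`, `comp`, `cancel`, `comp_isLocalization`;
* `exists_poly_baseChange`: `Laz (MvPolynomial σ O) R → Laz (MvPolynomial σ O') (O' ⊗[O] R)`;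
* `exists_kummer`: `Laz (MvPolynomial σ O) R → Laz (MvPolynomial σ O) (kummer R t n)`, `X_{e i} ↦ T_i`.
-/

set_option autoImplicit false
universe u

open TensorProduct

namespace Groth.Agent.Pi1.H272.LazPerm

open Groth.Agent.Hensel.Lazard (Laz)
open Groth.Agent.CalgC

section Basic

variable {A B C : Type u} [CommRing A] [CommRing B] [CommRing C] [Algebra A B] [Algebra A C]

theorem laz_iff : Laz A B ↔ IndEtale.IsIndEtale A B := Iff.rfl

/-- Ind-etale algebras are weakly etale. -/
theorem weaklyEtale (h : Laz A B) : Algebra.WeaklyEtale A B :=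
  Groth.Agent.Pi1C.IndEtaleWE.weaklyEtale_of_lazard h

theorem formallyEtale (h : Laz A B) : Algebra.FormallyEtale A B :=
  Groth.Agent.Hensel.LazardGlue.formallyEtale h

theorem flat (h : Laz A B) : Module.Flat A B := h.flat

/-- An etale algebra is ind-etale. -/
theorem of_self [Algebra.Etale A B] : Laz A B := by
  intro P _ _ _ φ
  exact ⟨B, inferInstance, inferInstance, inferInstance, φ, AlgHom.id A B, AlgHom.id_comp _⟩

theorem of_algEquiv (h : Laz A B) (e : B ≃ₐ[A] C) : Laz A C := by
  intro P _ _ _ φ
  obtain ⟨E, _, _, hE, ψ, χ, hχ⟩ := h P (e.symm.toAlgHom.comp φ)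
  refine ⟨E, inferInstance, inferInstance, hE, ψ, e.toAlgHom.comp χ, ?_⟩
  rw [AlgHom.comp_assoc, hχ]
  ext x
  simp

/-- Base change. -/
theorem baseChange (h : Laz A B) (A' : Type u) [CommRing A'] [Algebra A A'] :
    Laz A' (A' ⊗[A] B) :=
  IndEtale.IsInd.baseChange IndEtale.isGood_etale h A'

/-- Base change, tensor factors in the other order. -/
theorem baseChange_right (h : Laz A B) (A' : Type u) [CommRing A'] [Algebra A A'] :
    letI : Algebra A' (B ⊗[A] A') := Algebra.TensorProduct.rightAlgebra
    Laz A' (B ⊗[A] A') := by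
  let _ : Algebra A' (B ⊗[A] A') := Algebra.TensorProduct.rightAlgebra
  refine of_algEquiv (baseChange h A')
    { (Algebra.TensorProduct.comm A A' B).toRingEquiv with
      commutes' := fun r => ?_ }
  rfl

/-- Base change along a pushout square. -/
theorem of_isPushout {A' B' : Type u} [CommRing A'] [CommRing B'] [Algebra A A'] [Algebra A B']
    [Algebra A' B'] [Algebra B B'] [IsScalarTower A A' B'] [IsScalarTower A B B']
    [Algebra.IsPushout A A' B B'] (h : Laz A B) : Laz A' B' :=
  of_algEquiv (baseChange h A') (Algebra.IsPushout.equiv A A' B B')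

/-- Localizations are ind-etale. -/
theorem of_isLocalization (M : Submonoid A) [IsLocalization M B] : Laz A B :=
  IndEtale.isIndEtale_of_isLocalization M B

/-- Composition. -/
theorem comp [Algebra B C] [IsScalarTower A B C] (h : Laz A B) (h' : Laz B C) : Laz A C :=
  IndEtale.IsInd.comp IndEtale.isGood_etale h h'

/-- A localization of an ind-etale algebra is ind-etale. -/
theorem comp_isLocalization [Algebra B C] [IsScalarTower A B C] (h : Laz A B)
    (M : Submonoid B) [IsLocalization M C] : Laz A C :=
  comp h (of_isLocalization (A := B) (B := C) M)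

/-- Cancellation: a map between ind-etale algebras is ind-etale. -/
theorem cancel [Algebra B C] [IsScalarTower A B C] (h : Laz A B) (h' : Laz A C) : Laz B C :=
  IndEtale.IsInd.cancel IndEtale.isGood_etale h h'

/-- Cancellation, with a map which is only assumed to be compatible. -/
theorem cancel' (f : B →ₐ[A] C) (h : Laz A B) (h' : Laz A C) :
    letI := f.toRingHom.toAlgebra
    Laz B C := by
  let _ := f.toRingHom.toAlgebra
  have : IsScalarTower A B C := IsScalarTower.of_algebraMap_eq fun x => (f.commutes x).symm
  exact cancel h h'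

/-- Passage to localizations of source and target. -/
theorem of_isLocalization_both {A' C' : Type u} [CommRing A'] [CommRing C'] [Algebra A A']
    [Algebra A' C'] [Algebra B C'] [Algebra A C'] [IsScalarTower A A' C'] [IsScalarTower A B C']
    (h : Laz A B) (M : Submonoid A) [IsLocalization M A'] (N : Submonoid B) [IsLocalization N C'] :
    Laz A' C' :=
  cancel (A := A) (of_isLocalization M) (comp_isLocalization h N)

end Basic

section Pushout

/-- Ind-etale algebras are stable under cobase change, in terms of the universal property of a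
pushout square. -/
theorem of_pushout {P P' R D : Type u} [CommRing P] [CommRing P'] [CommRing R] [CommRing D]
    (κ : P →+* P') (α : P →+* R) (β : P' →+* D) (γ : R →+* D) (hcomm : γ.comp α = β.comp κ)
    (huniv : ∀ (T : Type u) [CommRing T] (f : R →+* T) (g : P' →+* T), f.comp α = g.comp κ →
      ∃ h : D →+* T, h.comp γ = f ∧ h.comp β = g)
    (hext : ∀ (T : Type u) [CommRing T] (h h' : D →+* T), h.comp γ = h'.comp γ →
      h.comp β = h'.comp β → h = h')
    (hwe : letI := α.toAlgebra; Laz P R) :
    letI := β.toAlgebra; Laz P' D := by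
  let _ : Algebra P P' := κ.toAlgebra
  let _ : Algebra P R := α.toAlgebra
  let _ : Algebra P' D := β.toAlgebra
  let _ : Algebra R D := γ.toAlgebra
  let _ : Algebra P D := (γ.comp α).toAlgebra
  have _ : IsScalarTower P R D := IsScalarTower.of_algebraMap_eq fun x => rfl
  have _ : IsScalarTower P P' D := IsScalarTower.of_algebraMap_eq fun x => RingHom.congr_fun hcomm x
  have hwe' : Laz P R := hwe
  have h1 : Laz P' (P' ⊗[P] R) := baseChange hwe' P'
  let F : P' ⊗[P] R →ₐ[P'] D := Algebra.TensorProduct.lift (Algebra.ofId P' D)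
    (IsScalarTower.toAlgHom P R D) (fun _ _ => Commute.all _ _)
  obtain ⟨G, hG1, hG2⟩ := huniv (P' ⊗[P] R)
    (Algebra.TensorProduct.includeRight : R →ₐ[P] P' ⊗[P] R).toRingHom
    (algebraMap P' (P' ⊗[P] R)) (by
      ext x
      have := (Algebra.TensorProduct.includeRight : R →ₐ[P] P' ⊗[P] R).commutes x
      refine this.trans ?_
      rw [IsScalarTower.algebraMap_apply P P' (P' ⊗[P] R)]
      rfl)
  have hFG : F.toRingHom.comp G = RingHom.id D := by
    refine hext D _ _ ?_ ?_
    · rw [RingHom.comp_assoc, hG1]
      ext x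
      change F (1 ⊗ₜ x) = γ x
      simp only [F, Algebra.TensorProduct.lift_tmul, map_one, one_mul]
      rfl
    · rw [RingHom.comp_assoc, hG2]
      ext x
      exact F.commutes x
  have hGF : ∀ x, G (F x) = x := by
    intro x
    induction x with
    | zero => simp
    | add x y hx hy => rw [map_add, map_add, hx, hy]
    | tmul p r =>
      have h2 : F (p ⊗ₜ r) = β p * γ r := by
        simp only [F, Algebra.TensorProduct.lift_tmul]
        rfl
      have h3 : G (β p) = p ⊗ₜ 1 := RingHom.congr_fun hG2 p
      have h4 : G (γ r) = 1 ⊗ₜ r := RingHom.congr_fun hG1 r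
      rw [h2, map_mul, h3, h4, Algebra.TensorProduct.tmul_mul_tmul, mul_one, one_mul]
  let e : (P' ⊗[P] R) ≃ₐ[P'] D := AlgEquiv.ofBijective F
    ⟨Function.LeftInverse.injective hGF, fun d => ⟨G d, RingHom.congr_fun hFG d⟩⟩
  exact of_algEquiv h1 e

end Pushout

section Poly

open MvPolynomial

variable {σ : Type} {O R : Type u} [CommRing O] [CommRing R] [Algebra O R]
  [Algebra (MvPolynomial σ O) R] [IsScalarTower O (MvPolynomial σ O) R]

/-- The polynomial chart after a base change `O → O'`. -/
noncomputable def polyMap (O' : Type u) [CommRing O'] [Algebra O O'] :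
    MvPolynomial σ O' →ₐ[O'] O' ⊗[O] R :=
  MvPolynomial.aeval fun j => 1 ⊗ₜ[O] algebraMap (MvPolynomial σ O) R (X j)

theorem polyMap_map (O' : Type u) [CommRing O'] [Algebra O O'] (p : MvPolynomial σ O) :
    polyMap (O := O) (R := R) O' (MvPolynomial.map (algebraMap O O') p) =
      1 ⊗ₜ[O] algebraMap (MvPolynomial σ O) R p := by
  induction p using MvPolynomial.induction_on with
  | C a =>
    rw [MvPolynomial.map_C, polyMap, MvPolynomial.aeval_C,
      Algebra.TensorProduct.algebraMap_apply, Algebra.algebraMap_self_apply]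
    have h1 : algebraMap (MvPolynomial σ O) R (C a) = algebraMap O R a := by
      rw [IsScalarTower.algebraMap_apply O (MvPolynomial σ O) R]
      rfl
    rw [h1, Algebra.algebraMap_eq_smul_one, Algebra.algebraMap_eq_smul_one,
      TensorProduct.smul_tmul]
  | add p q hp hq => rw [map_add, map_add, hp, hq, map_add, TensorProduct.tmul_add]
  | mul_X p j hp =>
    rw [map_mul, map_mul, hp, MvPolynomial.map_X, polyMap, MvPolynomial.aeval_X, map_mul,
      Algebra.TensorProduct.tmul_mul_tmul, one_mul]

/-- Base change of the base ring in a polynomial chart. -/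
theorem laz_polyMap (h : Laz (MvPolynomial σ O) R) (O' : Type u) [CommRing O'] [Algebra O O'] :
    letI := (polyMap (σ := σ) (O := O) (R := R) O').toRingHom.toAlgebra
    Laz (MvPolynomial σ O') (O' ⊗[O] R) := by
  refine of_pushout (MvPolynomial.map (algebraMap O O')) (algebraMap (MvPolynomial σ O) R)
    (polyMap (σ := σ) (O := O) (R := R) O').toRingHom
    (Algebra.TensorProduct.includeRight : R →ₐ[O] O' ⊗[O] R).toRingHom ?_ ?_ ?_ ?_
  · ext x
    · exact (polyMap_map O' (C x)).symm
    · exact (polyMap_map O' (X x)).symm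
  · intro T _ f g hfg
    letI : Algebra O' T := (g.comp C).toAlgebra
    letI : Algebra O T := ((g.comp C).comp (algebraMap O O')).toAlgebra
    haveI : IsScalarTower O O' T := IsScalarTower.of_algebraMap_eq fun x => rfl
    let f' : R →ₐ[O] T := { f with
      commutes' := fun x => by
        have h1 := RingHom.congr_fun hfg (C x)
        simp only [RingHom.comp_apply, MvPolynomial.map_C] at h1
        change f (algebraMap O R x) = g (C (algebraMap O O' x))
        rw [← h1, IsScalarTower.algebraMap_apply O (MvPolynomial σ O) R]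
        rfl }
    let k : O' ⊗[O] R →ₐ[O'] T := Algebra.TensorProduct.lift (Algebra.ofId O' T) f'
      (fun _ _ => Commute.all _ _)
    refine ⟨k.toRingHom, ?_, ?_⟩
    · ext x
      change k (1 ⊗ₜ x) = f x
      simp only [k, Algebra.TensorProduct.lift_tmul, map_one, one_mul]
      rfl
    · refine MvPolynomial.ringHom_ext (fun c => ?_) (fun j => ?_)
      · change k (polyMap (σ := σ) (O := O) (R := R) O' (C c)) = _
        rw [polyMap, MvPolynomial.aeval_C, AlgHom.commutes]
        rfl
      · change k (polyMap (σ := σ) (O := O) (R := R) O' (X j)) = _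
        rw [polyMap, MvPolynomial.aeval_X]
        simp only [k, Algebra.TensorProduct.lift_tmul, map_one, one_mul]
        have h1 := RingHom.congr_fun hfg (X j)
        simp only [RingHom.comp_apply, MvPolynomial.map_X] at h1
        exact h1
  · intro T _ k k' h1 h2
    have h3 : ∀ x : O' ⊗[O] R, k x = k' x := by
      intro x
      induction x with
      | zero => simp
      | add x y hx hy => rw [map_add, map_add, hx, hy]
      | tmul p r =>
        have h4 : p ⊗ₜ[O] r = polyMap (σ := σ) (O := O) (R := R) O' (C p) * (1 ⊗ₜ r) := by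
          rw [polyMap, MvPolynomial.aeval_C, Algebra.TensorProduct.algebraMap_apply,
            Algebra.algebraMap_self_apply, Algebra.TensorProduct.tmul_mul_tmul, mul_one, one_mul]
        have h5 : k (polyMap (σ := σ) (O := O) (R := R) O' (C p)) =
            k' (polyMap (σ := σ) (O := O) (R := R) O' (C p)) := RingHom.congr_fun h2 (C p)
        have h6 : k (1 ⊗ₜ r) = k' (1 ⊗ₜ r) := RingHom.congr_fun h1 r
        rw [h4, map_mul, map_mul, h5, h6]
    exact RingHom.ext h3
  · convert h
    exact Algebra.algebra_ext _ _ fun r => rfl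

/-- Existential form of `laz_polyMap`. -/
theorem exists_poly_baseChange (h : Laz (MvPolynomial σ O) R) (O' : Type u) [CommRing O']
    [Algebra O O'] : ∃ (_ : Algebra (MvPolynomial σ O') (O' ⊗[O] R)),
      IsScalarTower O' (MvPolynomial σ O') (O' ⊗[O] R) ∧ Laz (MvPolynomial σ O') (O' ⊗[O] R) ∧
      ∀ p : MvPolynomial σ O, algebraMap (MvPolynomial σ O') (O' ⊗[O] R)
        (MvPolynomial.map (algebraMap O O') p) = 1 ⊗ₜ algebraMap (MvPolynomial σ O) R p := by
  letI := (polyMap (σ := σ) (O := O) (R := R) O').toRingHom.toAlgebra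
  refine ⟨inferInstance, IsScalarTower.of_algebraMap_eq fun x => ?_, laz_polyMap h O',
    polyMap_map O'⟩
  exact ((polyMap (σ := σ) (O := O) (R := R) O').commutes x).symm

end Poly

section Kummer

open MvPolynomial Groth.Agent.Pi1.H394

open Classical in
/-- The exponents on all variables: `n_i` for `X_{e i}` and `1` for the variables not of this form. -/
noncomputable def expo {ι σ : Type} (e : ι → σ) (n : ι → ℕ) (j : σ) : ℕ :=
  if h : ∃ i, e i = j then n h.choose else 1

theorem expo_apply {ι σ : Type} (e : ι → σ) (he : Function.Injective e) (n : ι → ℕ) (i : ι) :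
    expo e n (e i) = n i := by
  have h : ∃ i', e i' = e i := ⟨i, rfl⟩
  rw [expo, dif_pos h, he h.choose_spec]

theorem expo_of_not {ι σ : Type} (e : ι → σ) (n : ι → ℕ) (j : σ) (hj : ¬ ∃ i, e i = j) :
    expo e n j = 1 := by
  rw [expo, dif_neg hj]

variable {σ : Type} {A : Type u} [CommRing A] {R : Type u} [CommRing R]
  (α : MvPolynomial σ A →+* R) {ι : Type} (e : ι → σ) (t : ι → R) (n : ι → ℕ)

open Classical in
/-- `A[X_j] → R[T_i]/(T_i^{n_i} - t_i)`, `X_{e i} ↦ T_i` and `X_j ↦ x_j` for the other variables. -/
noncomputable def polyToKummer : MvPolynomial σ A →+* SGA1t.kummer R t n :=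
  MvPolynomial.eval₂Hom ((algebraMap R (SGA1t.kummer R t n)).comp (α.comp C))
    (fun j => if h : ∃ i, e i = j then KummerAlg.T t n h.choose
      else algebraMap R (SGA1t.kummer R t n) (α (X j)))

theorem polyToKummer_C (c : A) : polyToKummer α e t n (C c) =
    algebraMap R (SGA1t.kummer R t n) (α (C c)) := by
  simp [polyToKummer]

theorem polyToKummer_X (he : Function.Injective e) (i : ι) : polyToKummer α e t n (X (e i)) =
    KummerAlg.T t n i := by
  have h : ∃ i', e i' = e i := ⟨i, rfl⟩
  rw [polyToKummer, coe_eval₂Hom, eval₂_X, dif_pos h, he h.choose_spec]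

theorem polyToKummer_X_of_not (j : σ) (hj : ¬ ∃ i, e i = j) : polyToKummer α e t n (X j) =
    algebraMap R (SGA1t.kummer R t n) (α (X j)) := by
  rw [polyToKummer, coe_eval₂Hom, eval₂_X, dif_neg hj]

/-- `X_j ↦ X_j^{m_j}`. -/
noncomputable def powHom : MvPolynomial σ A →+* MvPolynomial σ A :=
  MvPolynomial.eval₂Hom C (fun j => X j ^ expo e n j)

/-- If `R` is ind-etale over `A[X_j]` then the Kummer algebra is ind-etale over `A[X_j]` through
`X_{e i} ↦ T_i`. -/
theorem laz_kummer (he : Function.Injective e) (ht : ∀ i, α (X (e i)) = t i)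
    (hwe : letI := α.toAlgebra; Laz (MvPolynomial σ A) R) :
    letI := (polyToKummer α e t n).toAlgebra
    Laz (MvPolynomial σ A) (SGA1t.kummer R t n) := by
  refine of_pushout (powHom e n) α (polyToKummer α e t n)
    (algebraMap R (SGA1t.kummer R t n)) ?_ ?_ ?_ hwe
  · refine MvPolynomial.ringHom_ext (fun c => ?_) (fun j => ?_)
    · simp [powHom, polyToKummer_C]
    · simp only [RingHom.comp_apply, powHom, coe_eval₂Hom, eval₂_X, map_pow]
      by_cases hj : ∃ i, e i = j
      · obtain ⟨i, rfl⟩ := hj
        rw [expo_apply e he, polyToKummer_X α e t n he, KummerAlg.T_pow, ht]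
      · rw [expo_of_not e n j hj, pow_one, polyToKummer_X_of_not α e t n j hj]
  · intro T _ f g hfg
    have hC : ∀ c, f (α (C c)) = g (C c) := by
      intro c
      have := RingHom.congr_fun hfg (C c)
      simpa [powHom] using this
    have hX : ∀ j, f (α (X j)) = g (X j) ^ expo e n j := by
      intro j
      have := RingHom.congr_fun hfg (X j)
      simpa [powHom] using this
    refine ⟨KummerAlg.lift t n f (fun i => g (X (e i))) (fun i => ?_), ?_, ?_⟩
    · rw [← ht, hX, expo_apply e he]
    · ext r
      simp
    · refine MvPolynomial.ringHom_ext (fun c => ?_) (fun j => ?_)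
      · rw [RingHom.comp_apply, polyToKummer_C, KummerAlg.lift_algebraMap, hC]
      · by_cases hj : ∃ i, e i = j
        · obtain ⟨i, rfl⟩ := hj
          rw [RingHom.comp_apply, polyToKummer_X α e t n he, KummerAlg.lift_T]
        · rw [RingHom.comp_apply, polyToKummer_X_of_not α e t n j hj, KummerAlg.lift_algebraMap, hX,
            expo_of_not e n j hj, pow_one]
  · intro T _ h h' h1 h2
    refine KummerAlg.ringHom_ext t n (fun r => RingHom.congr_fun h1 r) (fun i => ?_)
    rw [← polyToKummer_X α e t n he]
    exact RingHom.congr_fun h2 _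

theorem laz_kummer' [Algebra (MvPolynomial σ A) R] (h : Laz (MvPolynomial σ A) R)
    (he : Function.Injective e) (ht : ∀ i, algebraMap (MvPolynomial σ A) R (X (e i)) = t i) :
    @Laz (MvPolynomial σ A) (SGA1t.kummer R t n) _ _
      (polyToKummer (algebraMap (MvPolynomial σ A) R) e t n).toAlgebra := by
  refine laz_kummer (algebraMap (MvPolynomial σ A) R) e t n he ht ?_
  convert h
  exact Algebra.algebra_ext _ _ fun r => rfl

/-- Existential form of `laz_kummer`, for an algebra `D` isomorphic to the Kummer algebra
(the type `D` is opaque in order to avoid the other `MvPolynomial σ O`-algebra structure of the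
Kummer algebra, through `R`). -/
theorem exists_kummer {O : Type u} [CommRing O] [Algebra O R] [Algebra (MvPolynomial σ O) R]
    [IsScalarTower O (MvPolynomial σ O) R] (h : Laz (MvPolynomial σ O) R)
    (he : Function.Injective e) (ht : ∀ i, algebraMap (MvPolynomial σ O) R (X (e i)) = t i) :
    ∃ (D : Type u) (_ : CommRing D) (_ : Algebra R D) (_ : Algebra O D) (_ : IsScalarTower O R D)
      (_ : Algebra (MvPolynomial σ O) D) (_ : IsScalarTower O (MvPolynomial σ O) D)
      (θ : SGA1t.kummer R t n ≃ₐ[R] D), Laz (MvPolynomial σ O) D ∧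
      (∀ i, algebraMap (MvPolynomial σ O) D (X (e i)) = θ (KummerAlg.T t n i)) ∧
      ∀ j, (¬ ∃ i, e i = j) → algebraMap (MvPolynomial σ O) D (X j) =
        algebraMap R D (algebraMap (MvPolynomial σ O) R (X j)) := by
  let a : Algebra (MvPolynomial σ O) (SGA1t.kummer R t n) :=
    (polyToKummer (algebraMap (MvPolynomial σ O) R) e t n).toAlgebra
  refine ⟨SGA1t.kummer R t n, inferInstance, inferInstance, inferInstance, inferInstance, a,
    @IsScalarTower.of_algebraMap_eq O (MvPolynomial σ O) (SGA1t.kummer R t n) _ _ _ _ a _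
      (fun x => ?_), AlgEquiv.refl, laz_kummer' e t n h he ht,
    polyToKummer_X _ e t n he, polyToKummer_X_of_not _ e t n⟩
  refine Eq.trans ?_ (polyToKummer_C (algebraMap (MvPolynomial σ O) R) e t n x).symm
  have h1 : algebraMap (MvPolynomial σ O) R (C x) = algebraMap O R x := by
    rw [IsScalarTower.algebraMap_apply O (MvPolynomial σ O) R]
    rfl
  rw [h1]
  rfl

end Kummer

end Groth.Agent.Pi1.H272.LazPerm
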